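import Mathlib
import Cfsg.Agent.Base
import Cfsg.Agent.Lib.ClassMax.Ident
import Cfsg.Agent.Lib.ClassMax.Orth

/-!
Irreducible subgroups of symplectic groups in characteristic two which cover the unipotent radical
of a point stabiliser modulo transvections, I: the calculus of the maps `uu`.
-/

set_option autoImplicit false
set_option linter.unusedSectionVars false

namespace H97t

open Module H97 H28

variable {F V : Type*} [Field F] [AddCommGroup V] [Module F V]

/-- The elements of the unipotent radical of the stabiliser of `a`. -/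
def uu (f : LinearMap.BilinForm F V) (a w : V) (c : F) (x : V) : V :=
  x + f x a • w + (f x w + c * f x a) • a

/-- `L` contains `uu a w c`. -/
def HU (f : LinearMap.BilinForm F V) (L : Subgroup (V ≃ₗ[F] V)) (a w : V) (c : F) : Prop :=
  Has L (uu f a w c)

/-- A symplectic space in characteristic two. -/
structure Ctx0 (f : LinearMap.BilinForm F V) : Prop where
  two : (2 : F) = 0
  alt : ∀ x, f x x = 0
  nd : ∀ x, (∀ y, f x y = 0) → x = 0

/-- The basic setting. -/
structure Ctx (f : LinearMap.BilinForm F V) (L : Subgroup (V ≃ₗ[F] V)) (D : Set V) : Prop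
    extends Ctx0 f where
  iso : ∀ g ∈ L, ∀ x y, f (g x) (g y) = f x y
  ne : ∀ d ∈ D, d ≠ 0
  app : ∀ d ∈ D, ∀ g ∈ L, g d ∈ D
  smul : ∀ d ∈ D, ∀ t : F, t ≠ 0 → t • d ∈ D
  trans : ∀ d ∈ D, ∀ e ∈ D, ∃ g ∈ L, ∃ t : F, t ≠ 0 ∧ e = t • g d
  full : ∀ d ∈ D, ∀ w, f w d = 0 → ∃ c, HU f L d w c
  span : ∀ φ : Dual F V, (∀ d ∈ D, φ d = 0) → φ = 0
  big : ∀ a b, ∃ w, w ≠ 0 ∧ f w a = 0 ∧ f w b = 0

variable {f : LinearMap.BilinForm F V} {L : Subgroup (V ≃ₗ[F] V)} {D : Set V}

theorem HU.zero (a : V) : HU f L a 0 0 := has_id.congr fun x => by simp [uu]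

theorem uu_smul (t : F) (a w : V) (c : F) (x : V) :
    uu f (t • a) w c x = uu f a (t • w) (t ^ 2 * c) x := by
  simp only [uu, map_smul, smul_eq_mul]
  module

theorem HU_smul {t : F} {a w : V} {c : F} : HU f L (t • a) w c ↔ HU f L a (t • w) (t ^ 2 * c) := by
  unfold HU
  rw [show uu f (t • a) w c = uu f a (t • w) (t ^ 2 * c) from funext (uu_smul t a w c)]

theorem HU.cast {a w w' : V} {c c' : F} (h : HU f L a w c) (e : w = w') (e' : c = c') :
    HU f L a w' c' := e ▸ e' ▸ h

namespace Ctx0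

variable (h : Ctx0 f)
include h

theorem sym (x y : V) : f x y = f y x := by
  have := h.alt (x + y)
  simp only [map_add, LinearMap.add_apply, h.alt] at this
  linear_combination this + (- f y x) * h.two

theorem add_self (x : V) : x + x = 0 := by
  rw [← two_smul F x, h.two, zero_smul]

theorem sadd (x : F) : x + x = 0 := by linear_combination x * h.two

theorem eq_of_add {x y : F} (e : x + y = 0) : x = y := by linear_combination e - y * h.two

theorem uu_add_smul (a w : V) (c t : F) (x : V) : uu f a (w + t • a) c x = uu f a w c x := by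
  simp only [uu, map_add, map_smul, smul_eq_mul]
  linear_combination (norm := module) (h.two) • ((t * f x a) • a)

theorem HU_add_smul {a w : V} {c : F} (t : F) : HU f L a (w + t • a) c ↔ HU f L a w c := by
  unfold HU
  rw [show uu f a (w + t • a) c = uu f a w c from funext (h.uu_add_smul a w c t)]

theorem add {a w w' : V} {c c' : F} (hu : HU f L a w c) (hu' : HU f L a w' c') (hw : f w a = 0)
    (hw' : f w' a = 0) : HU f L a (w + w') (c + c' + f w w') := by
  refine (Has.comp hu hu').congr fun x => ?_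
  have e1 : f a w = 0 := by rw [h.sym, hw]
  simp only [uu, map_add, map_smul, LinearMap.add_apply, LinearMap.smul_apply, smul_eq_mul, hw',
    h.alt, e1, h.sym w' w]
  module

theorem exists_one {v : V} (hv : v ≠ 0) : ∃ b, f v b = 1 := by
  by_contra hc
  push Not at hc
  refine hv (h.nd v fun y => ?_)
  by_contra h0
  exact hc ((f v y)⁻¹ • y) (by rw [map_smul, smul_eq_mul, inv_mul_cancel₀ h0])

end Ctx0

/-- The projection on the orthogonal complement of a hyperbolic pair. -/
def pr (f : LinearMap.BilinForm F V) (a b v : V) : V := v + f v b • a + f v a • b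

namespace Ctx0

variable (h : Ctx0 f)
include h

theorem pr_a {a b : V} (hab : f a b = 1) (v : V) : f (pr f a b v) a = 0 := by
  simp only [pr, map_add, map_smul, LinearMap.add_apply, LinearMap.smul_apply, smul_eq_mul, h.alt,
    h.sym b a, hab]
  linear_combination (f v a) * h.two

theorem pr_b {a b : V} (hab : f a b = 1) (v : V) : f (pr f a b v) b = 0 := by
  simp only [pr, map_add, map_smul, LinearMap.add_apply, LinearMap.smul_apply, smul_eq_mul, h.alt,
    hab]
  linear_combination (f v b) * h.two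

theorem eq_pr (a b v : V) : v = pr f a b v + f v b • a + f v a • b := by
  simp only [pr]
  linear_combination (norm := module) -(h.two) • (f v b • a + f v a • b)

theorem exists_dual {a b w : V} (hab : f a b = 1) (hw : w ≠ 0) (ha : f w a = 0) (hb : f w b = 0) :
    ∃ w', f w' a = 0 ∧ f w' b = 0 ∧ f w w' = 1 := by
  obtain ⟨y, hy⟩ := h.exists_one hw
  refine ⟨pr f a b y, h.pr_a hab y, h.pr_b hab y, ?_⟩
  simp [pr, ha, hb, hy]

theorem uu_opp {a b w : V} (hab : f a b = 1) (h2 : f w b = 0) (c k : F) (h1 : f w a = 0) :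
    uu f a w c (b + k • a) = b + w + (c + k) • a := by
  have e1 : f b a = 1 := by rw [h.sym, hab]
  have e2 : f b w = 0 := by rw [h.sym, h2]
  have e3 : f a w = 0 := by rw [h.sym, h1]
  simp only [uu, map_add, map_smul, LinearMap.add_apply, LinearMap.smul_apply, smul_eq_mul, e1, e2,
    e3, h.alt]
  module

theorem uu_opp0 {a b w : V} (hab : f a b = 1) (h2 : f w b = 0) (c : F) (h1 : f w a = 0) :
    uu f a w c b = b + w + c • a := by
  simpa using h.uu_opp hab h2 c 0 h1

end Ctx0

namespace Ctx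

variable (h : Ctx f L D)
include h

theorem conj {a w : V} {c : F} (hu : HU f L a w c) {g : V ≃ₗ[F] V} (hg : g ∈ L) :
    HU f L (g a) (g w) c := by
  refine (Has.conj hu hg).congr fun x => ?_
  have e : ∀ y, f (g⁻¹ x) y = f x (g y) := fun y => by
    rw [← h.iso g hg, le_apply_inv]
  simp only [uu, map_add, map_smul, le_apply_inv, e]

theorem mem {a w d : V} {c : F} (hu : HU f L a w c) (hd : d ∈ D) : uu f a w c d ∈ D := by
  obtain ⟨g, hg, e⟩ := hu
  exact e d ▸ h.app d hd g hg

theorem exists_opp' {v : V} (hv : v ≠ 0) : ∃ b ∈ D, f v b = 1 := by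
  by_contra hc
  push Not at hc
  refine hv (h.nd v fun y => ?_)
  have : f v = 0 := h.span _ fun d hd => by
    by_contra h0
    exact hc _ (h.smul d hd (f v d)⁻¹ (inv_ne_zero h0)) (by
      rw [map_smul, smul_eq_mul, inv_mul_cancel₀ h0])
  rw [this]; rfl

theorem exists_opp {a : V} (ha : a ∈ D) : ∃ b ∈ D, f a b = 1 := h.exists_opp' (h.ne a ha)

/-- Points of `D` perpendicular to `a ∈ D` can be moved along the line through `a`. -/
theorem mem_move {a b w : V} (ha : a ∈ D) (hab : f a b = 1) (hw : w ≠ 0) (h1 : f w a = 0)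
    (h2 : f w b = 0) {s : F} (hd : w + s • a ∈ D) (t : F) : w + t • a ∈ D := by
  obtain ⟨w', e1, -, e3⟩ := h.exists_dual hab hw h1 h2
  obtain ⟨c, hc⟩ := h.full a ha ((s + t) • w') (by simp [e1])
  have := h.mem hc hd
  have e4 : f a w' = 0 := by rw [h.sym, e1]
  simp only [uu, map_add, map_smul, LinearMap.add_apply, LinearMap.smul_apply, smul_eq_mul, h1,
    h.alt, e3, e4] at this
  convert this using 1
  linear_combination (norm := module) -(h.two) • (s • a)

theorem mem_of_add {a b w : V} (ha : a ∈ D) (hab : f a b = 1) (hw : w ≠ 0) (h1 : f w a = 0)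
    (h2 : f w b = 0) (hd : a + w ∈ D) : w ∈ D := by
  simpa using h.mem_move ha hab hw h1 h2 (s := 1) (by rwa [one_smul, add_comm]) 0

variable [Finite F]

/-- Three points on a hyperbolic line give perpendicular points. -/
theorem exists_perp {a b w : V} (ha : a ∈ D) (hb : b ∈ D) (hab : f a b = 1) {k : F} (hk : k ≠ 0)
    (hd : b + k • a ∈ D) (h1 : f w a = 0) (h2 : f w b = 0) : ∃ x : F, x ≠ 0 ∧ b + x • w ∈ D := by
  have hx : ∀ x : F, f (x • w) a = 0 := fun x => by simp [h1]
  have hy : ∀ x : F, f (x • w) b = 0 := fun x => by simp [h2]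
  choose γ hγ using fun x : F => h.full a ha (x • w) (hx x)
  by_cases h0 : ∃ x : F, x ≠ 0 ∧ HU f L a (x • w) 0
  · obtain ⟨x, hx0, hu⟩ := h0
    refine ⟨x, hx0, ?_⟩
    simpa [h.uu_opp0 hab (hy x) 0 (hx x)] using h.mem hu hb
  push Not at h0
  have hinj : Function.Injective γ := fun x y e => by
    by_contra hne
    refine h0 (x + y) (fun e' => hne (h.eq_of_add e')) ?_
    refine (h.add (hγ x) (hγ y) (hx x) (hx y)).cast (add_smul _ _ _).symm ?_
    simp [e, h.alt, h.sadd]
  have hs := Finite.surjective_of_injective hinj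
  obtain ⟨x0, e0⟩ := hs 0
  obtain ⟨x1, e1⟩ := hs k
  have z0 : x0 = 0 := by
    by_contra hne
    exact h0 x0 hne (e0 ▸ hγ x0)
  refine ⟨x1, fun e => hk (by rw [← e1, e.trans z0.symm, e0]), ?_⟩
  have := h.mem (hγ x1) hd
  rwa [h.uu_opp hab (hy x1) _ _ (hx x1), e1, h.sadd, zero_smul, add_zero] at this

omit [Finite F] in
/-- The normalising lemma for perpendicular points. -/
theorem norm {a c d : V} (hc : c ∈ D) (hca : f c a = 0) (h1 : f d a = 1) (h2 : f d c = 0) {μ γ : F}
    (hu : HU f L a (μ • c) γ) (ν : F) : HU f L c ((ν * γ) • a) (ν ^ 2 * γ) := by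
  obtain ⟨δ, hδ⟩ := h.full c hc (ν • d) (by simp [h2])
  obtain ⟨g, hg, e⟩ := hu
  have h3 := h.conj hδ hg
  have e1 : g c = c := by simp [e, uu, hca, h.alt]
  have e2 : g (ν • d) = (ν • d + (ν * γ) • a) + (ν * μ) • c := by
    simp only [map_smul, e, uu, h1, h2, smul_eq_mul, LinearMap.smul_apply]
    module
  rw [e1, e2, h.HU_add_smul] at h3
  have hac : f a c = 0 := by rw [h.sym, hca]
  refine (h.add hδ h3 (by simp [h2]) (by simp [h2, hac])).cast ?_ ?_
  · rw [← add_assoc, h.add_self, zero_add]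
  · simp only [map_add, map_smul, LinearMap.smul_apply, smul_eq_mul, h.alt, h1, h.sadd]
    ring

/-- If the field has more than two elements, a non-zero parameter over a perpendicular point gives
all transvections. -/
theorem all_tv {a b c : V} (ha : a ∈ D) (hab : f a b = 1) (hc : c ∈ D) (hca : f c a = 0)
    (hcb : f c b = 0) {μ γ : F} (hu : HU f L a (μ • c) γ) (hγ : γ ≠ 0) {x : F} (hx0 : x ≠ 0)
    (hx1 : x ≠ 1) (k : F) : HU f L a 0 k := by
  have hba : f b a = 1 := by rw [h.sym, hab]
  have hbc : f b c = 0 := by rw [h.sym, hcb]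
  have hac : f a c = 0 := by rw [h.sym, hca]
  obtain ⟨d, d1, -, d3⟩ := h.exists_dual hab (h.ne c hc) hca hcb
  rw [h.sym] at d3
  have key : ∀ ν : F, ν ≠ 0 → ∀ y : F, HU f L a (y • c) (y ^ 2 / (ν ^ 2 * γ)) := fun ν hν y => by
    have h1 := h.norm hc hca hba hbc hu ν
    have h2 := h.norm ha hac d3 d1 h1 (y / (ν ^ 2 * γ))
    refine h2.cast ?_ ?_
    · congr 1; field_simp
    · field_simp
  have hne : (1 / γ + 1 / (x ^ 2 * γ)) ≠ 0 := fun e => by
    have e1 := h.eq_of_add e
    field_simp at e1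
    have : (x + 1) ^ 2 = 0 := by linear_combination e1 + (x + 1) * h.two
    exact hx1 (h.eq_of_add (pow_eq_zero_iff two_ne_zero |>.1 this))
  have : CharP F 2 := (CharP.charP_iff_prime_eq_zero Nat.prime_two).2 (by exact_mod_cast h.two)
  obtain ⟨y, hy⟩ := FiniteField.isSquare_of_char_two (ringChar.eq F 2)
    (k / (1 / γ + 1 / (x ^ 2 * γ)))
  refine (h.add (key 1 one_ne_zero y) (key x hx0 y) (by simp [hca]) (by simp [hca])).cast
    (h.add_self _) ?_
  have : k = y * y * (1 / γ + 1 / (x ^ 2 * γ)) := by rw [← hy, div_mul_cancel₀ _ hne]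
  rw [this]
  simp only [map_smul, LinearMap.smul_apply, smul_eq_mul, h.alt]
  ring

omit [Finite F] in
theorem transfer {a d : V} (ha : a ∈ D) (hd : d ∈ D) (hall : ∀ k, HU f L a 0 k) (k : F) :
    HU f L d 0 k := by
  obtain ⟨g, hg, t, -, rfl⟩ := h.trans a ha d hd
  rw [HU_smul]
  simpa using h.conj (hall (t ^ 2 * k)) hg

/-- If `L` contains a transvection centred at a point of `D`, it is the whole symplectic group. -/
theorem caseB [FiniteDimensional F V] {a : V} (ha : a ∈ D) {k : F} (hk : k ≠ 0)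
    (hu : HU f L a 0 k) : (PQ.ofAlt f h.alt).Isom ≤ L := by
  obtain ⟨b, hb, hab⟩ := h.exists_opp ha
  have hba : f b a = 1 := by rw [h.sym, hab]
  have hall : ∀ k', HU f L a 0 k' := by
    by_cases hx : ∃ x : F, x ≠ 0 ∧ x ≠ 1
    · obtain ⟨x, hx0, hx1⟩ := hx
      obtain ⟨w, hw0, w1, w2⟩ := h.big a b
      have h1 : b + k • a ∈ D := by
        simpa [h.uu_opp0 hab (w := 0) (by simp) k (by simp)] using h.mem hu hb
      obtain ⟨y, hy0, hy⟩ := h.exists_perp ha hb hab hk h1 w1 w2
      have hc := h.mem_of_add hb hba (smul_ne_zero hy0 hw0) (by simp [w2]) (by simp [w1]) hy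
      exact h.all_tv ha hab hc (by simp [w1]) (by simp [w2]) (μ := 0) (by simpa using hu) hk hx0 hx1
    · push Not at hx
      intro k'
      by_cases h0 : k' = 0
      · exact h0 ▸ HU.zero a
      · rw [hx k' h0, ← hx k hk]; exact hu
  have hX : ∀ d ∈ D, XLe (PQ.ofAlt f h.alt) L d := fun d hd w c hw _ => by
    have hw' : f w d = 0 := by rw [h.sym]; exact hw
    obtain ⟨c', hc'⟩ := h.full d hd w hw'
    have := (h.add hc' (h.transfer ha hd hall (c + c')) hw' (by simp)).cast (add_zero w)
      (c' := c) (by simp; linear_combination c' * h.two)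
    refine Has.congr this fun x => ?_
    rw [eu_apply]
    change _ = x + (f w x - (-1) * c * f d x) • d - ((-1) * f d x) • w
    rw [uu, h.sym w x, h.sym d x]
    module
  have hnd : f.SeparatingLeft := h.nd
  rw [← EG_alt hnd]
  exact EG_le_of_xle hnd (d := a) (e := b) trivial trivial (hX a ha) (hX b hb)
    (by change f a b ≠ 0; rw [hab]; exact one_ne_zero)

end Ctx

end H97t
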