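import Mathlib
import Cfsg.Agent.Base
import Cfsg.Agent.Lib.Orth12.Omega

/-!
In characteristic two, a subgroup of the orthogonal group containing all Eichler transformations is
the whole group or the kernel of the Dickson invariant (dimension four included).
-/

set_option autoImplicit false
set_option linter.unusedSectionVars false

namespace H97t

open Module H12 H12.O QuadraticMap

variable {F V : Type*} [Field F] [AddCommGroup V] [Module F V] {Q : QuadraticForm F V}

theorem polar_prod' (x y : V × V) : polar (Q.prod Q) x y = polar Q x.1 y.1 + polar Q x.2 y.2 := by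
  simp only [polar, QuadraticMap.prod_apply, Prod.fst_add, Prod.snd_add]; ring

theorem nondeg_prod (hQ : Nondeg Q) : Nondeg (Q.prod Q) := fun v hv => by
  refine Prod.ext (hQ _ fun w => ?_) (hQ _ fun w => ?_)
  · simpa [polar_prod'] using hv (w, 0)
  · simpa [polar_prod'] using hv (0, w)

/-- The orthogonal group of `Q` inside that of `Q ⊥ Q`. -/
def emb (Q : QuadraticForm F V) : O Q →* O (Q.prod Q) where
  toFun g := ⟨g.1.prodCongr (LinearEquiv.refl F V), mem_O.2 fun v => by
    simp [QuadraticMap.prod_apply, map_Q]⟩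
  map_one' := O.ext fun v => rfl
  map_mul' _ _ := O.ext fun v => rfl

theorem emb_apply (g : O Q) (v : V × V) : (emb Q g).1 v = (g.1 v.1, v.2) := rfl

theorem finrank_mov_emb (g : O Q) : finrank F (mov (emb Q g)) = finrank F (mov g) := by
  have : mov (emb Q g) = (mov g).map (LinearMap.inl F V V) := by
    ext v
    simp only [mem_mov, Submodule.mem_map, emb_apply, LinearMap.inl_apply]
    constructor
    · rintro ⟨x, rfl⟩
      exact ⟨_, ⟨x.1, rfl⟩, by ext <;> simp⟩
    · rintro ⟨_, ⟨x, rfl⟩, rfl⟩
      exact ⟨(x, 0), by ext <;> simp⟩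
  rw [this, ← (Submodule.equivMapOfInjective _ LinearMap.inl_injective _).finrank_eq]

variable [FiniteDimensional F V]

theorem good_prod (hQ : Nondeg Q) (hn : finrank F V ≠ 2) : Good (Q.prod Q) :=
  good_of_finrank_ne (nondeg_prod hQ) (by rw [finrank_prod]; omega)

/-- The Dickson invariant as a homomorphism, in every dimension other than two. -/
noncomputable def dk' (hQ : Nondeg Q) (hn : finrank F V ≠ 2) : O Q →* ℤˣ :=
  (dk (nondeg_prod hQ) (good_prod hQ hn)).comp (emb Q)

theorem dk'_apply (hQ : Nondeg Q) (hn : finrank F V ≠ 2) (g : O Q) :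
    dk' hQ hn g = (-1) ^ finrank F (mov g) := by
  rw [dk', MonoidHom.comp_apply, dk_apply, finrank_mov_emb]

theorem dk'_eich (hQ : Nondeg Q) (hn : finrank F V ≠ 2) (u v : V) : dk' hQ hn (eich Q u v) = 1 := by
  by_cases h : Q u = 0 ∧ polar Q u v = 0
  · have e : emb Q (eich Q u v) = eich (Q.prod Q) (u, 0) (v, 0) := O.ext fun x => by
      rw [emb_apply, eich_apply h.1 h.2, eich_apply (by simpa using h.1)
        (by simpa using h.2)]
      ext <;> simp [polar_prod']
    rw [dk', MonoidHom.comp_apply, e]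
    exact (Abelianization.commutator_subset_ker _)
      (eich_mem_Om (nondeg_prod hQ) (good_prod hQ hn) _ _)
  · rw [eich_of_not h, map_one]

theorem dk'_refl (hQ : Nondeg Q) (hn : finrank F V ≠ 2) {v : V} (hv : Q v ≠ 0) :
    dk' hQ hn (refl Q v) = -1 := by
  have := dkFun_refl_mul hQ 1 hv
  rw [mul_one, dkFun_one] at this
  rw [dk'_apply]
  exact this

variable (Q) in
/-- The subgroup generated by the Eichler transformations. -/
def EE : Subgroup (O Q) := Subgroup.closure {g | ∃ u v, g = eich Q u v}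

omit [FiniteDimensional F V] in
theorem eich_mem_EE (u v : V) : eich Q u v ∈ EE Q := Subgroup.subset_closure ⟨u, v, rfl⟩

instance : (EE Q).Normal := ⟨fun n hn g => by
  induction hn using Subgroup.closure_induction with
  | mem x hx =>
    obtain ⟨u, v, rfl⟩ := hx
    rw [eich_conj]
    exact eich_mem_EE _ _
  | one => simp
  | mul x y _ _ hx hy => simpa [mul_assoc] using mul_mem hx hy
  | inv x _ hx => simpa [mul_assoc] using inv_mem hx⟩

omit [FiniteDimensional F V] in
theorem exists_EE_apply (h2 : (2 : F) = 0) {a x y : V} (ha : Q a = 0) (hq : Q x = Q y)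
    (hB : polar Q x a = polar Q y a) (h0 : polar Q x a ≠ 0) : ∃ g ∈ EE Q, g.1 x = y := by
  set t := polar Q x a with ht
  have e1 : polar Q a (t⁻¹ • (x + y)) = 0 := by
    rw [B_smul_right, polar_add_right, polar_comm _ a x, polar_comm _ a y, ← hB, ← ht]
    linear_combination (t⁻¹ * t) * h2
  refine ⟨_, eich_mem_EE a (t⁻¹ • (x + y)), ?_⟩
  rw [eich_apply ha e1, B_smul_right, polar_add_right, B_self, Q_smul, Q_add, ← ht, ← hq]
  have i : t⁻¹ * t = 1 := inv_mul_cancel₀ h0
  match_scalars
  · linear_combination -i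
  · linear_combination (-t⁻¹ * (2 * Q x + polar Q x y)) * i
  · linear_combination -i - h2

/-- The Eichler group is transitive on the vectors of norm one. -/
theorem EE_trans [Finite F] (h2 : (2 : F) = 0) (hQ : Nondeg Q) {a b : V} (ha : Q a = 0)
    (hb : Q b = 0) (hab : polar Q a b = 1)
    (hs : ∀ k : F, ∃ w, polar Q w a = 0 ∧ polar Q w b = 0 ∧ Q w = k) {x : V} (hx : Q x = 1) :
    ∃ g ∈ EE Q, g.1 x = a + b := by
  have hba : polar Q b a = 1 := by rw [polar_comm, hab]
  have haa : polar Q a a = 0 := by rw [B_self, ha, mul_zero]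
  have hbb : polar Q b b = 0 := by rw [B_self, hb, mul_zero]
  have Qab : Q (a + b) = 1 := by rw [Q_add, ha, hb, hab]; ring
  have k1 : ∀ x, Q x = 1 → polar Q x a ≠ 0 → ∃ g ∈ EE Q, g.1 x = a + b := fun x hx h0 => by
    set t := polar Q x a with ht
    obtain ⟨w, w1, w2, w3⟩ := hs (1 + t)
    have e1 : Q (a + t • b + w) = 1 := by
      rw [Q_add, Q_add, Q_smul, ha, hb, w3, B_smul_right, hab, polar_add_left, B_smul_left,
        polar_comm _ a w, polar_comm _ b w, w1, w2]
      linear_combination t * h2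
    obtain ⟨g, hg, e⟩ := exists_EE_apply h2 ha (x := x) (y := a + t • b + w) (by rw [hx, e1])
      (by rw [polar_add_left, polar_add_left, B_smul_left, haa, hba, w1, ← ht]; ring) h0
    obtain ⟨g', hg', e'⟩ := exists_EE_apply h2 hb (x := a + t • b + w) (y := a + b)
      (by rw [e1, Qab])
      (by rw [polar_add_left, polar_add_left, polar_add_left, B_smul_left, hbb, hab, w2]; ring)
      (by rw [polar_add_left, polar_add_left, B_smul_left, hbb, hab, w2]; simp)
    exact ⟨g' * g, mul_mem hg' hg, by rw [mul_apply, e, e']⟩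
  by_cases h0 : polar Q x a = 0
  · obtain ⟨y, hy, e⟩ : ∃ g ∈ EE Q, polar Q (g.1 x) a ≠ 0 := by
      by_cases h1 : polar Q x b = 0
      · have hx0 : x ≠ 0 := by rintro rfl; simp at hx
        obtain ⟨v, hv⟩ : ∃ v, polar Q x v ≠ 0 := by
          by_contra hc
          push Not at hc
          exact hx0 (hQ x hc)
        set w := v - polar Q v a • b with hw
        have e1 : polar Q b (v - polar Q v b • a) = 0 := by
          rw [polar_sub_right, B_smul_right, hba, polar_comm]; ring
        refine ⟨_, eich_mem_EE b (v - polar Q v b • a), ?_⟩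
        rw [eich_apply_of_orth_left hb e1 h1, polar_add_left, B_smul_left, h0, hba,
          polar_sub_right, B_smul_right, h0]
        simpa using hv
      · set t := polar Q x b with ht
        obtain ⟨g, hg, e⟩ := exists_EE_apply h2 hb (x := x) (y := t • a + t⁻¹ • b)
          (by rw [hx, Q_add, Q_smul, Q_smul, ha, hb, B_smul_left, B_smul_right, hab]; field_simp; ring)
          (by rw [polar_add_left, B_smul_left, B_smul_left, hab, hbb, ← ht]; ring) h1
        refine ⟨g, hg, ?_⟩
        rw [e, polar_add_left, B_smul_left, B_smul_left, haa, hba]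
        simpa using h1
    obtain ⟨g, hg, e'⟩ := k1 _ (by rw [map_Q, hx]) e
    exact ⟨g * y, mul_mem hg hy, by rw [mul_apply, e']⟩
  · exact k1 x hx h0

theorem refl_mul_mem_EE [Finite F] (h2 : (2 : F) = 0) (hQ : Nondeg Q) {a b : V} (ha : Q a = 0)
    (hb : Q b = 0) (hab : polar Q a b = 1)
    (hs : ∀ k : F, ∃ w, polar Q w a = 0 ∧ polar Q w b = 0 ∧ Q w = k) {x : V} (hx : Q x ≠ 0) :
    refl Q (a + b) * refl Q x ∈ EE Q := by
  have : CharP F 2 := (CharP.charP_iff_prime_eq_zero Nat.prime_two).2 (by exact_mod_cast h2)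
  obtain ⟨y, hy⟩ := FiniteField.isSquare_of_char_two (ringChar.eq F 2) (Q x)⁻¹
  have hy0 : y ≠ 0 := by rintro rfl; exact inv_ne_zero hx (by simpa using hy)
  obtain ⟨g, hg, e⟩ := EE_trans h2 hQ ha hb hab hs (x := y • x)
    (by rw [Q_smul, pow_two, ← hy, inv_mul_cancel₀ hx])
  rw [← e, ← refl_conj, refl_smul hy0]
  have := mul_mem hg ((inferInstance : (EE Q).Normal).conj_mem _ (inv_mem hg) (refl Q x))
  rw [refl_inv] at this
  simpa only [mul_assoc] using this

/-- A subgroup containing the Eichler transformations is `O` or the kernel of the Dickson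
invariant. -/
theorem top_or_even [Finite F] (h2 : (2 : F) = 0) (hQ : Nondeg Q) (hn : finrank F V ≠ 2) {a b : V}
    (ha : Q a = 0) (hb : Q b = 0) (hab : polar Q a b = 1)
    (hs : ∀ k : F, ∃ w, polar Q w a = 0 ∧ polar Q w b = 0 ∧ Q w = k) (M : Subgroup (O Q))
    (hM : ∀ u v, eich Q u v ∈ M) : M = ⊤ ∨ ∀ g, g ∈ M ↔ Even (finrank F (mov g)) := by
  have hE : EE Q ≤ M := (Subgroup.closure_le _).2 (by rintro _ ⟨u, v, rfl⟩; exact hM u v)
  set r := refl Q (a + b) with hr
  have hrr : r * r = 1 := refl_mul_self _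
  have hri : r⁻¹ = r := refl_inv _
  have hN : (EE Q).Normal := inferInstance
  let S : Subgroup (O Q) :=
    { carrier := {g | g ∈ EE Q ∨ r * g ∈ EE Q}
      one_mem' := Or.inl (one_mem _)
      mul_mem' := by
        rintro x y (hx | hx) (hy | hy)
        · exact Or.inl (mul_mem hx hy)
        · exact Or.inr (by simpa [mul_assoc] using mul_mem (hN.conj_mem _ hx r) hy)
        · exact Or.inr (by simpa [mul_assoc] using mul_mem hx hy)
        · refine Or.inl ?_
          have := mul_mem (hN.conj_mem _ hx r) hy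
          rwa [← mul_assoc r r, hrr, one_mul, ← mul_assoc, inv_mul_cancel_right] at this
      inv_mem' := by
        rintro x (hx | hx)
        · exact Or.inl (inv_mem hx)
        · refine Or.inr ?_
          have := hN.conj_mem _ (inv_mem hx) r
          rwa [mul_inv_rev, ← mul_assoc, mul_assoc _ r⁻¹, hri, hrr, mul_one] at this }
  have hS : S = ⊤ := eq_top_of_refl_of_siegel hQ S
    (fun v hv => Or.inr (refl_mul_mem_EE h2 hQ ha hb hab hs hv))
    (fun u v _ _ _ => Or.inl (eich_mem_EE u v))
  have hall : ∀ g, g ∈ EE Q ∨ r * g ∈ EE Q := fun g => (hS ▸ Subgroup.mem_top g : g ∈ S)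
  have hker : EE Q ≤ (dk' hQ hn).ker := (Subgroup.closure_le _).2 (by
    rintro _ ⟨u, v, rfl⟩; exact dk'_eich hQ hn u v)
  have hdr : dk' hQ hn r = -1 := dk'_refl hQ hn (by rw [Q_add, ha, hb, hab]; simp)
  have hev : ∀ g, Even (finrank F (mov g)) ↔ dk' hQ hn g = 1 := fun g => by
    rw [dk'_apply, neg_one_pow_eq_one_iff_even (by decide)]
  by_cases hc : ∀ g ∈ M, g ∈ EE Q
  · refine Or.inr fun g => ⟨fun hg => (hev g).2 (hker (hc g hg)), fun hg => hE ?_⟩
    refine (hall g).resolve_right fun e => ?_
    have := hker e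
    rw [MonoidHom.mem_ker, map_mul, hdr, (hev g).1 hg] at this
    exact absurd this (by decide)
  · push Not at hc
    obtain ⟨g, hg, hg'⟩ := hc
    have hrM : r ∈ M := by
      simpa using mul_mem (hE ((hall g).resolve_left hg')) (inv_mem hg)
    refine Or.inl (eq_top_iff.2 fun x _ => (hall x).elim (fun e => hE e) fun e => ?_)
    have := mul_mem hrM (hE e)
    rwa [← mul_assoc, hrr, one_mul] at this

end H97t
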