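import Mathlib
import Cfsg.Agent.Base
import Cfsg.Agent.Lib.TwoTv.Basic

/-!
Irreducible subgroups of symplectic groups in characteristic two which cover the unipotent radical
of a point stabiliser modulo transvections, II: the invariant quadratic form.
-/

set_option autoImplicit false
set_option linter.unusedSectionVars false

namespace H97t

open Module H97 H28

variable {F V : Type*} [Field F] [AddCommGroup V] [Module F V]
variable {f : LinearMap.BilinForm F V} {L : Subgroup (V ≃ₗ[F] V)} {D : Set V}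

/-- No transvection of `L` is centred at a point of `D`. -/
def NoTv (f : LinearMap.BilinForm F V) (L : Subgroup (V ≃ₗ[F] V)) (D : Set V) : Prop :=
  ∀ a ∈ D, ∀ k, HU f L a 0 k → k = 0

/-- Perpendicular points of `D` are singular for each other. -/
def H0 (f : LinearMap.BilinForm F V) (L : Subgroup (V ≃ₗ[F] V)) (D : Set V) : Prop :=
  ∀ a ∈ D, ∀ b ∈ D, f a b = 1 → ∀ c ∈ D, f c a = 0 → f c b = 0 → ∀ μ : F, HU f L a (μ • c) 0

/-- Homogeneity. -/
def H1 (f : LinearMap.BilinForm F V) (L : Subgroup (V ≃ₗ[F] V)) (a b : V) : Prop :=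
  ∀ w, f w a = 0 → f w b = 0 → ∀ c μ : F, HU f L a w c → HU f L a (μ • w) (μ ^ 2 * c)

namespace Ctx

variable (h : Ctx f L D)
include h

theorem uniq (hA : NoTv f L D) {a w : V} (ha : a ∈ D) (hw : f w a = 0) {c c' : F}
    (h1 : HU f L a w c) (h2 : HU f L a w c') : c = c' := by
  have := hA a ha _ ((h.add h1 h2 hw hw).cast (h.add_self w) rfl)
  rw [h.alt, add_zero] at this
  exact h.eq_of_add this

theorem h0_of_big [Finite F] (hA : NoTv f L D) {x : F} (hx0 : x ≠ 0) (hx1 : x ≠ 1) : H0 f L D := by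
  intro a ha b _ hab c hc hca hcb μ
  obtain ⟨γ, hγ⟩ := h.full a ha (μ • c) (by simp [hca])
  by_cases h0 : γ = 0
  · exact h0 ▸ hγ
  · exact absurd (hA a ha 1 (h.all_tv ha hab hc hca hcb hγ h0 hx0 hx1 1)) one_ne_zero

theorem h0_of_dim (h6 : ∀ a c, f c a = 0 → ∃ w w', f w a = 0 ∧ f w c = 0 ∧ f w' a = 0 ∧
    f w' c = 0 ∧ f w' w = 1) : H0 f L D := by
  intro a ha b _ _ c hc hca _ μ
  obtain ⟨w, w', h1, h2, h3, h4, h5⟩ := h6 a c hca
  obtain ⟨γ, g, hg, e⟩ := h.full c hc (μ • w) (by simp [h2])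
  obtain ⟨δ, hδ⟩ := h.full a ha w' h3
  have hac : f a c = 0 := by rw [h.sym, hca]
  have haw : f a w = 0 := by rw [h.sym, h1]
  have e1 : g a = a := by simp [e, uu, hac, haw]
  have e2 : g w' = w' + μ • c := by simp [e, uu, h4, h5]
  have h7 := h.conj hδ hg
  rw [e1, e2] at h7
  refine (h.add hδ h7 h3 (by simp [h3, hca])).cast ?_ ?_
  · rw [← add_assoc, h.add_self, zero_add]
  · simp [h.alt, h4, h.sadd]

theorem h0_of_two (h2 : ∀ x : F, x ≠ 0 → x = 1)
    (hs : ∀ a ∈ D, ∀ b ∈ D, f a b = 1 → a + b ∉ D) : H0 f L D := by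
  intro a ha b hb hab c hc hca hcb μ
  by_cases hμ : μ = 0
  · simpa [hμ] using HU.zero a
  rw [h2 μ hμ, one_smul]
  obtain ⟨γ, hγ⟩ := h.full a ha c hca
  by_cases h0 : γ = 0
  · exact h0 ▸ hγ
  exfalso
  rw [h2 γ h0] at hγ
  have e1 := h.mem hγ hb
  rw [h.uu_opp0 hab hcb _ hca] at e1
  have e2 := h.mem_move ha hab (h.ne c hc) hca hcb (s := 0) (by simpa using hc) 1
  refine hs _ e2 b hb (by simp [hcb, hab]) ?_
  convert e1 using 1
  module

theorem h1_of_two (h2 : ∀ x : F, x ≠ 0 → x = 1) (a b : V) : H1 f L a b := by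
  intro w _ _ c μ hu
  by_cases hμ : μ = 0
  · simpa [hμ] using HU.zero a
  · simpa [h2 μ hμ] using hu

theorem mem_of_sing {a b w : V} (hb : b ∈ D) (hab : f a b = 1) (hw : w ≠ 0) (h1 : f w a = 0)
    (h2 : f w b = 0) (hu : HU f L a w 0) : w ∈ D := by
  have e1 := h.mem hu hb
  rw [h.uu_opp0 hab h2 _ h1, zero_smul, add_zero] at e1
  exact h.mem_of_add hb (by rw [h.sym, hab]) hw h2 h1 e1

theorem sing_smul (h0 : H0 f L D) {a b w : V} (ha : a ∈ D) (hb : b ∈ D) (hab : f a b = 1)
    (h1 : f w a = 0) (h2 : f w b = 0) (hu : HU f L a w 0) (μ : F) : HU f L a (μ • w) 0 := by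
  by_cases hw : w = 0
  · simpa [hw] using HU.zero a
  · exact h0 a ha b hb hab w (h.mem_of_sing hb hab hw h1 h2 hu) h1 h2 μ

theorem h1_of_sing (h0 : H0 f L D) {a b c : V} (ha : a ∈ D) (hb : b ∈ D) (hab : f a b = 1)
    (hc : c ≠ 0) (c1 : f c a = 0) (c2 : f c b = 0) (hu : HU f L a c 0) :
    H1 f L a b := by
  have hc' := h.sing_smul h0 ha hb hab c1 c2 hu
  have key : ∀ w, f w a = 0 → f w b = 0 → f w c ≠ 0 → ∀ γ μ : F, HU f L a w γ →
      HU f L a (μ • w) (μ ^ 2 * γ) := fun w w1 w2 w3 γ μ hw => by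
    set l := γ / f w c with hl
    have e1 : HU f L a (w + l • c) 0 := by
      refine (h.add hw (hc' l) w1 (by simp [c1])).cast rfl ?_
      simp only [map_smul, smul_eq_mul, hl]
      rw [div_mul_cancel₀ _ w3, add_zero, h.sadd]
    have e2 := h.sing_smul h0 ha hb hab (by simp [w1, c1]) (by simp [w2, c2]) e1 μ
    refine (h.add e2 (hc' (μ * l)) (by simp [w1, c1]) (by simp [c1])).cast ?_ ?_
    · linear_combination (norm := module) h.two • ((μ * l) • c)
    · simp only [map_smul, map_add, LinearMap.add_apply, LinearMap.smul_apply, smul_eq_mul, h.alt,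
        hl]
      field_simp
      ring
  intro w w1 w2 γ μ hw
  by_cases w3 : f w c = 0
  · obtain ⟨v, v1, v2, v3⟩ := h.exists_dual hab hc c1 c2
    rw [h.sym] at v3
    obtain ⟨δ, hδ⟩ := h.full a ha v v1
    have e1 := h.add hw hδ w1 v1
    have e2 := key (w + v) (by simp [w1, v1]) (by simp [w2, v2]) (by simp [w3, v3]) _ μ e1
    have e3 := key v v1 v2 (by simp [v3]) _ μ hδ
    refine (h.add e2 e3 (by simp [w1, v1]) (by simp [v1])).cast ?_ ?_
    · linear_combination (norm := module) h.two • (μ • v)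
    · simp only [map_smul, map_add, LinearMap.add_apply, LinearMap.smul_apply, smul_eq_mul, h.alt]
      linear_combination (μ ^ 2 * δ + μ ^ 2 * f w v) * h.two
  · exact key w w1 w2 w3 γ μ hw

theorem h1_of_aniso [Finite F] (h0 : H0 f L D) (hA : NoTv f L D) {a b : V} (ha : a ∈ D)
    (hb : b ∈ D) (hab : f a b = 1)
    (han : ∀ c, f c a = 0 → f c b = 0 → HU f L a c 0 → c = 0) : H1 f L a b := by
  have hba : f b a = 1 := by rw [h.sym, hab]
  intro w w1 w2 γ μ hw
  by_cases hw0 : w = 0
  · subst hw0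
    rw [hA a ha γ hw]
    simpa using HU.zero a
  have hx : ∀ x : F, f (x • w) a = 0 := fun x => by simp [w1]
  have hy : ∀ x : F, f (x • w) b = 0 := fun x => by simp [w2]
  choose α hα using fun x : F => h.full a ha (x • w) (hx x)
  have hinj : Function.Injective α := fun x y e => by
    have := han ((x + y) • w) (hx _) (hy _) ((h.add (hα x) (hα y) (hx x) (hx y)).cast
      (add_smul _ _ _).symm (by simp [e, h.alt, h.sadd]))
    exact h.eq_of_add ((smul_eq_zero.1 this).resolve_right hw0)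
  have hs := Finite.surjective_of_injective hinj
  -- only two points on the line through `a` and `b`
  have hone : ∀ k : F, a + k • b ∈ D → k = 0 := fun k hk => by
    by_contra hk0
    have e1 : b + k⁻¹ • a ∈ D := by
      convert h.smul _ hk k⁻¹ (inv_ne_zero hk0) using 1
      rw [smul_add, smul_smul, inv_mul_cancel₀ hk0, one_smul, add_comm]
    obtain ⟨x, hx0, e2⟩ := h.exists_perp ha hb hab (inv_ne_zero hk0) e1 w1 w2
    have e3 := h.mem_of_add hb hba (smul_ne_zero hx0 hw0) (hy x) (hx x) e2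
    have e4 := h0 a ha b hb hab _ e3 (hx x) (hy x) 1
    rw [one_smul] at e4
    exact smul_ne_zero hx0 hw0 (han _ (hx x) (hy x) e4)
  have key : ∀ t : F, t ≠ 0 → ∀ x : F, HU f L b (x • w) (α (t * x) / t ^ 2) := fun t ht x => by
    obtain ⟨ν, hν⟩ := hs t
    have e1 := hα ν
    rw [hν] at e1
    obtain ⟨ψ, hψ⟩ := h.full b hb ((ν / t) • w) (hy _)
    have e2 := h.smul _ (h.mem e1 hb) t⁻¹ (inv_ne_zero ht)
    rw [h.uu_opp0 hab (hy ν) _ (hx ν)] at e2
    have e3 := h.mem hψ e2
    have e4 : uu f b ((ν / t) • w) ψ (t⁻¹ • (b + ν • w + t • a)) = a + (t⁻¹ + ψ) • b := by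
      have i1 : f a w = 0 := by rw [h.sym, w1]
      have i2 : f b w = 0 := by rw [h.sym, w2]
      simp only [uu, map_add, map_smul, LinearMap.add_apply, LinearMap.smul_apply, smul_eq_mul,
        h.alt, hab, w2, i1, i2]
      have i3 : t⁻¹ * t = 1 := inv_mul_cancel₀ ht
      match_scalars
      · linear_combination ψ * i3
      · linear_combination (ν * t⁻¹) * i3 + (ν * t⁻¹) * h.two
      · linear_combination i3
    rw [e4] at e3
    have e5 : ψ = t⁻¹ := (h.eq_of_add (hone _ e3)).symm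
    rw [e5] at hψ
    obtain ⟨g1, hg1, k1⟩ := e1
    obtain ⟨g2, hg2, k2⟩ := hψ
    have e6 := h.conj (hα (t * x)) (mul_mem hg1 hg2)
    have i1 : f a w = 0 := by rw [h.sym, w1]
    have i2 : f b w = 0 := by rw [h.sym, w2]
    have e7 : (g1 * g2) a = t⁻¹ • b := by
      rw [le_mul_apply, k2, k1]
      simp only [uu, map_add, map_smul, LinearMap.add_apply, LinearMap.smul_apply, smul_eq_mul,
        h.alt, hab, hba, w1, i1, i2]
      have i3 : t⁻¹ * t = 1 := inv_mul_cancel₀ ht
      match_scalars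
      · linear_combination i3 + h.two
      · linear_combination (ν * t⁻¹) * h.two
      · ring
    have e8 : (g1 * g2) ((t * x) • w) = (t * x) • w := by
      rw [le_mul_apply, k2, k1]
      simp [uu, h.alt, w1, w2]
    rw [e7, e8, HU_smul] at e6
    refine e6.cast ?_ ?_
    · rw [smul_smul, ← mul_assoc, inv_mul_cancel₀ ht, one_mul]
    · field_simp
  by_cases hμ : μ = 0
  · simpa [hμ] using HU.zero a
  have e1 := h.uniq hA hb (hy 1) (key 1 one_ne_zero 1) (key μ hμ 1)
  have e2 : α 1 = γ := h.uniq hA ha (hx 1) (hα 1) (by simpa using hw)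
  refine (hα μ).cast rfl ?_
  rw [mul_one, mul_one, e2] at e1
  field_simp at e1
  linear_combination -e1

theorem h1_of_h0 [Finite F] (h0 : H0 f L D) (hA : NoTv f L D) {a b : V} (ha : a ∈ D)
    (hb : b ∈ D) (hab : f a b = 1) : H1 f L a b := by
  by_cases han : ∀ c, f c a = 0 → f c b = 0 → HU f L a c 0 → c = 0
  · exact h.h1_of_aniso h0 hA ha hb hab han
  · push Not at han
    obtain ⟨c, c1, c2, c3, c4⟩ := han
    exact h.h1_of_sing h0 ha hb hab c4 c1 c2 c3

theorem f_pr {a b : V} (hab : f a b = 1) (x y : V) :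
    f (pr f a b x) (pr f a b y) = f x y + f x a * f y b + f x b * f y a := by
  have hba : f b a = 1 := by rw [h.sym, hab]
  simp only [pr, map_add, map_smul, LinearMap.add_apply, LinearMap.smul_apply, smul_eq_mul, h.alt,
    hab, hba, h.sym a y, h.sym b y]
  linear_combination (f x a * f y b + f x b * f y a) * h.two

omit h in
theorem pr_add (a b x y : V) : pr f a b (x + y) = pr f a b x + pr f a b y := by
  simp only [pr, map_add, LinearMap.add_apply]
  module

omit h in
theorem pr_smul (a b : V) (t : F) (x : V) : pr f a b (t • x) = t • pr f a b x := by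
  simp only [pr, map_smul, LinearMap.smul_apply, smul_eq_mul]
  module

/-- The invariant quadratic form. -/
theorem exists_quad [Finite F] (h0 : H0 f L D) (hA : NoTv f L D) {a b : V} (ha : a ∈ D)
    (hb : b ∈ D) (hab : f a b = 1) : ∃ Q : QuadraticForm F V,
      (∀ x y, QuadraticMap.polar Q x y = f x y) ∧ Q a = 0 ∧ Q b = 0 ∧ (∀ g ∈ L, ∀ x, Q (g x) = Q x) ∧
      (∀ k : F, ∃ w, f w a = 0 ∧ f w b = 0 ∧ Q w = k) ∧
      ∀ d w, d ≠ 0 → Q d = 0 → f w d = 0 → HU f L d w (Q w) := by
  have h1 := h.h1_of_h0 h0 hA ha hb hab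
  have hba : f b a = 1 := by rw [h.sym, hab]
  choose φ hφ using fun v : V => h.full a ha (pr f a b v) (h.pr_a hab v)
  have φadd : ∀ x y, φ (x + y) = φ x + φ y + f (pr f a b x) (pr f a b y) := fun x y =>
    h.uniq hA ha (h.pr_a hab _) (hφ (x + y))
      ((h.add (hφ x) (hφ y) (h.pr_a hab x) (h.pr_a hab y)).cast (pr_add a b x y).symm rfl)
  have φsmul : ∀ (t : F) x, φ (t • x) = t ^ 2 * φ x := fun t x =>
    h.uniq hA ha (h.pr_a hab _) (hφ (t • x))
      ((h1 _ (h.pr_a hab x) (h.pr_b hab x) _ t (hφ x)).cast (pr_smul a b t x).symm rfl)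
  let Q : QuadraticForm F V :=
    { toFun := fun v => f v a * f v b + φ v
      toFun_smul := fun t x => by
        simp only [φsmul, map_smul, LinearMap.smul_apply, smul_eq_mul]; ring
      exists_companion' := ⟨f, fun x y => by
        simp only [φadd, h.f_pr hab, map_add, LinearMap.add_apply]
        linear_combination (f x a * f y b + f x b * f y a) * h.two⟩ }
  have Qd : ∀ v, Q v = f v a * f v b + φ v := fun v => rfl
  have Qadd : ∀ x y, Q (x + y) = Q x + Q y + f x y := fun x y => by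
    simp only [Qd, φadd, h.f_pr hab, map_add, LinearMap.add_apply]
    linear_combination (f x a * f y b + f x b * f y a) * h.two
  have Qs : ∀ (t : F) x, Q (t • x) = t ^ 2 * Q x := fun t x => by
    rw [QuadraticMap.map_smul, smul_eq_mul]; ring
  have φ0 : ∀ v, pr f a b v = 0 → φ v = 0 := fun v hv => hA a ha _ (hv ▸ hφ v)
  have Qa : Q a = 0 := by
    rw [Qd, φ0 a (by simp [pr, hab, h.alt, h.add_self]), h.alt]; ring
  have Qb : Q b = 0 := by
    rw [Qd, φ0 b (by simp [pr, hba, h.alt, h.add_self]), h.alt]; ring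
  have hXa : ∀ w, f w a = 0 → HU f L a w (Q w) := fun w hw => by
    have e := h.eq_pr a b w
    rw [hw, zero_smul, add_zero] at e
    rw [Qd, hw, zero_mul, zero_add]
    exact ((h.HU_add_smul (f w b)).2 (hφ w)).cast e.symm rfl
  have : CharP F 2 := (CharP.charP_iff_prime_eq_zero Nat.prime_two).2 (by exact_mod_cast h.two)
  have hsurj : ∀ k : F, ∃ w, f w a = 0 ∧ f w b = 0 ∧ Q w = k := fun k => by
    obtain ⟨w, hw, w1, w2, w3⟩ : ∃ w, w ≠ 0 ∧ f w a = 0 ∧ f w b = 0 ∧ Q w ≠ 0 := by
      by_contra hc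
      push Not at hc
      obtain ⟨w, hw, w1, w2⟩ := h.big a b
      obtain ⟨v, v1, v2, v3⟩ := h.exists_dual hab hw w1 w2
      have hv : v ≠ 0 := by rintro rfl; simp at v3
      have hwv : w + v ≠ 0 := fun e => by
        have := congrArg (f w) e
        simp [h.alt, v3] at this
      have := Qadd w v
      rw [hc w hw w1 w2, hc v hv v1 v2, hc _ hwv (by simp [w1, v1]) (by simp [w2, v2]), v3] at this
      simp at this
    obtain ⟨y, hy⟩ := FiniteField.isSquare_of_char_two (ringChar.eq F 2) (k / Q w)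
    exact ⟨y • w, by simp [w1], by simp [w2], by rw [Qs, sq, ← hy, div_mul_cancel₀ _ w3]⟩
  have hline : ∀ k : F, b + k • a ∈ D → k = 0 := fun k hk => by
    by_contra hk0
    obtain ⟨w, w1, w2, w3⟩ := hsurj k
    have hw : w ≠ 0 := by rintro rfl; exact hk0 (by simpa using w3.symm)
    have e1 := h.mem (hXa w w1) hk
    rw [h.uu_opp hab w2 _ _ w1, w3, h.sadd, zero_smul, add_zero] at e1
    have e2 := h0 a ha b hb hab w (h.mem_of_add hb hba hw w2 w1 e1) w1 w2 1
    rw [one_smul] at e2
    exact hk0 (w3 ▸ h.uniq hA ha w1 (hXa w w1) e2)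
  have dec : ∀ d, f d a = 1 → d = b + pr f a b d + f d b • a := fun d hd => by
    conv_lhs => rw [h.eq_pr a b d, hd]
    module
  have Qdec : ∀ d, f d a = 1 → Q d = Q (pr f a b d) + f d b := fun d hd => by
    conv_lhs => rw [dec d hd]
    rw [Qadd, Qadd, Qs, Qa, Qb]
    simp [hba, h.pr_a hab, h.sym b (pr f a b d), h.pr_b hab]
  have hsing : ∀ d ∈ D, Q d = 0 := fun d hd => by
    by_cases hda : f d a = 0
    · have e := h.eq_pr a b d
      rw [hda, zero_smul, add_zero] at e
      have e1 : Q d = Q (pr f a b d) := by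
        conv_lhs => rw [e]
        rw [Qadd, Qs, Qa]
        simp [h.pr_a hab]
      rw [e1]
      by_cases hp : pr f a b d = 0
      · rw [hp, map_zero]
      have e2 := h.mem_move ha hab hp (h.pr_a hab d) (h.pr_b hab d) (e ▸ hd) 0
      rw [zero_smul, add_zero] at e2
      have e3 := h0 a ha b hb hab _ e2 (h.pr_a hab d) (h.pr_b hab d) 1
      rw [one_smul] at e3
      exact h.uniq hA ha (h.pr_a hab d) (hXa _ (h.pr_a hab d)) e3
    · set d' := (f d a)⁻¹ • d with hd'
      have e1 : f d' a = 1 := by simp [hd', inv_mul_cancel₀ hda]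
      have e2 : d' ∈ D := h.smul d hd _ (inv_ne_zero hda)
      have e3 := h.mem (hXa _ (h.pr_a hab d')) e2
      have e4 : uu f a (pr f a b d') (Q (pr f a b d')) d' = b + (Q (pr f a b d') + f d' b) • a := by
        have i : f d' (pr f a b d') = 0 := by
          simp only [pr, map_add, map_smul, smul_eq_mul, h.alt, e1]
          linear_combination (f d' b) * h.two
        rw [uu, e1, i]
        linear_combination (norm := module) dec d' e1 + h.two • pr f a b d'
      rw [e4] at e3
      have e5 : Q d' = 0 := by rw [Qdec d' e1, hline _ e3]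
      rw [hd', Qs] at e5
      exact (mul_eq_zero.1 e5).resolve_left (pow_ne_zero _ (inv_ne_zero hda))
  have hinv : ∀ g ∈ L, ∀ x, Q (g x) = Q x := fun g hg => by
    let W : Submodule F V :=
      { carrier := {x | Q (g x) = Q x}
        add_mem' := fun {x y} hx hy => by
          simp only [Set.mem_ofPred_eq, map_add, Qadd, h.iso g hg] at *
          rw [hx, hy]
        zero_mem' := by simp
        smul_mem' := fun t x hx => by
          simp only [Set.mem_ofPred_eq, LinearEquiv.map_smul, Qs] at *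
          rw [hx] }
    intro x
    by_contra hx
    obtain ⟨ψ, ψ1, ψ2⟩ := exists_dual_of_notMem W (u := x) hx 1
    have := h.span ψ fun d hd => ψ1 d (show Q (g d) = Q d by
      rw [hsing d hd, hsing _ (h.app d hd g hg)])
    simp [this] at ψ2
  have hXD : ∀ d ∈ D, ∀ w, f w d = 0 → HU f L d w (Q w) := fun d hd w hw => by
    obtain ⟨g, hg, t, ht, rfl⟩ := h.trans a ha d hd
    rw [HU_smul, ← Qs]
    have e1 : f (g⁻¹ (t • w)) a = 0 := by
      rw [← h.iso g hg, le_apply_inv]
      simpa [ht] using hw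
    have := h.conj (hXa _ e1) hg
    rwa [le_apply_inv, hinv _ (inv_mem hg)] at this
  have hD : ∀ a' ∈ D, ∀ b' ∈ D, f a' b' = 1 → ∀ d, Q d = 0 → f d a' ≠ 0 → d ∈ D :=
    fun a' ha' b' hb' hab' d hd hda => by
    set d' := (f d a')⁻¹ • d with hd'
    have e1 : f d' a' = 1 := by simp [hd', inv_mul_cancel₀ hda]
    have e0 : Q d' = 0 := by rw [hd', Qs, hd, mul_zero]
    have e2 := h.mem (hXD a' ha' _ (h.pr_a hab' d')) hb'
    rw [h.uu_opp0 hab' (h.pr_b hab' d') _ (h.pr_a hab' d')] at e2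
    have e3 : d' = b' + pr f a' b' d' + f d' b' • a' := by
      conv_lhs => rw [h.eq_pr a' b' d', e1]
      module
    have e4 : Q (pr f a' b' d') = f d' b' := by
      refine h.eq_of_add ?_
      rw [← e0]
      conv_rhs => rw [e3]
      rw [Qadd, Qadd, Qs, hsing a' ha', hsing b' hb']
      simp [h.sym b' a', hab', h.pr_a hab', h.sym b' (pr f a' b' d'), h.pr_b hab']
    rw [e4, ← e3] at e2
    have := h.smul _ e2 _ hda
    rwa [hd', smul_smul, mul_inv_cancel₀ hda, one_smul] at this
  refine ⟨Q, fun x y => ?_, Qa, Qb, hinv, hsurj, fun d w hd0 hd hw => hXD d ?_ w hw⟩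
  · rw [QuadraticMap.polar, Qadd]; ring
  · by_cases hda : f d a = 0
    · by_cases hdb : f d b = 0
      · exact h.mem_of_sing hb hab hd0 hda hdb (hd ▸ hXa d hda)
      · exact hD b hb a ha hba d hd hdb
    · exact hD a ha b hb hab d hd hda

end Ctx

end H97t
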