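import Mathlib
import Cfsg.Agent.Base
import Cfsg.Agent.Lib.TwoTv.Quad
import Cfsg.Agent.Lib.TwoTv.Omega
import Cfsg.Agent.Lib.Perm.PermModule

/-!
Irreducible subgroups of symplectic groups in characteristic two which cover the unipotent radical
of a point stabiliser modulo transvections, III: the main theorem.
-/

set_option autoImplicit false
set_option linter.unusedSectionVars false

namespace H97t

open Module H97 H28

variable {F V : Type*} [Field F] [AddCommGroup V] [Module F V]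
variable {f : LinearMap.BilinForm F V} {L : Subgroup (V ≃ₗ[F] V)} {D : Set V}

theorem Ctx.exc (h : Ctx f L D) [Finite V] (h2 : ∀ x : F, x ≠ 0 → x = 1) (hV : Nat.card V = 16)
    {a b : V} (ha : a ∈ D) (hb : b ∈ D) (hab : f a b = 1) (hd : a + b ∈ D) :
    120 ∣ Nat.card L := by
  have hba : f b a = 1 := by rw [h.sym, hab]
  have h01 : ∀ s γ : F, s = γ ∨ s = γ + 1 := fun s γ => by
    by_cases e : s + γ = 0
    · exact Or.inl (h.eq_of_add e)
    · exact Or.inr (by linear_combination h2 _ e - γ * h.two)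
  have dec : ∀ d, f d a = 1 → d = b + pr f a b d + f d b • a := fun d hd => by
    conv_lhs => rw [h.eq_pr a b d, hd]
    module
  have hD1 : ∀ v, f v a = 1 → v ∈ D := fun v hv => by
    obtain ⟨γ, hγ⟩ := h.full a ha _ (h.pr_a hab v)
    rw [dec v hv]
    rcases h01 (f v b) γ with e | e
    · simpa only [h.uu_opp0 hab (h.pr_b hab v) _ (h.pr_a hab v), e] using h.mem hγ hb
    · have := h.mem hγ (d := b + (1 : F) • a) (by rwa [one_smul, add_comm])
      rwa [h.uu_opp hab (h.pr_b hab v) _ _ (h.pr_a hab v), ← e] at this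
  have hD : ∀ v, v ≠ 0 → v ∈ D := fun v hv => by
    obtain ⟨d, hd, e⟩ := h.exists_opp' hv
    obtain ⟨g, hg, t, ht, rfl⟩ := h.trans a ha d hd
    rw [h2 t ht, one_smul] at e
    have := h.app _ (hD1 (g⁻¹ v) (by rw [← h.iso g hg, le_apply_inv, e])) g hg
    rwa [le_apply_inv] at this
  have h15 : 15 ∣ Nat.card L := by
    have e : MulAction.orbit L a = {0}ᶜ := by
      ext v
      constructor
      · rintro ⟨g, rfl⟩
        exact h.ne _ (h.app a ha g.1 g.2)
      · intro hv
        obtain ⟨g, hg, t, ht, rfl⟩ := h.trans a ha v (hD v hv)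
        exact ⟨⟨g, hg⟩, by rw [h2 t ht, one_smul]; rfl⟩
    have e1 := MulAction.index_stabilizer L a
    have e2 := Set.ncard_add_ncard_compl ({0} : Set V)
    rw [Set.ncard_singleton, hV, ← e, ← e1] at e2
    exact (by omega : (MulAction.stabilizer L a).index = 15) ▸ Subgroup.index_dvd_card _
  obtain ⟨c, c1, c2, c3⟩ : ∃ c, f c a = 0 ∧ f c b = 0 ∧ HU f L a c 1 := by
    obtain ⟨w, hw, w1, w2⟩ := h.big a b
    obtain ⟨v, v1, v2, v3⟩ := h.exists_dual hab hw w1 w2
    obtain ⟨γ, hγ⟩ := h.full a ha w w1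
    obtain ⟨δ, hδ⟩ := h.full a ha v v1
    by_cases e1 : γ = 0
    · by_cases e2 : δ = 0
      · exact ⟨w + v, by simp [w1, v1], by simp [w2, v2],
          (h.add hγ hδ w1 v1).cast rfl (by simp [e1, e2, v3])⟩
      · exact ⟨v, v1, v2, h2 _ e2 ▸ hδ⟩
    · exact ⟨w, w1, w2, h2 _ e1 ▸ hγ⟩
  have hfix : ∀ w γ, f w a = 0 → uu f a w γ a = a := fun w γ hw => by
    simp [uu, h.alt, h.sym a w, hw]
  obtain ⟨g0, hg0, k1, k2⟩ : ∃ g ∈ L, g a = a ∧ g b = b + (1 : F) • a := by
    by_cases hc : c = 0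
    · obtain ⟨g, hg, e⟩ := c3
      exact ⟨g, hg, by rw [e, hfix _ _ c1], by rw [e, h.uu_opp0 hab c2 _ c1, hc, add_zero]⟩
    have hbc : f b c = 0 := by rw [h.sym, c2]
    have hac : f a c = 0 := by rw [h.sym, c1]
    obtain ⟨y, hy, e⟩ := h.norm (hD c hc) c1 hba hbc (μ := 1) (by simpa using c3) 1
    obtain ⟨x, hx, e'⟩ := c3
    refine ⟨x * y, mul_mem hx hy, ?_, ?_⟩
    · rw [le_mul_apply, e, e']
      simp [uu, hac, h.alt]
    · rw [le_mul_apply, e, e']
      simp only [uu, hbc, hba, c1, h.alt, map_add, map_smul, LinearMap.add_apply,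
        LinearMap.smul_apply, smul_eq_mul, hac]
      linear_combination (norm := module) h.two • c
  have h8 : 8 ∣ Nat.card L := by
    let S := MulAction.stabilizer L a
    have e : MulAction.orbit S b = {v | f v a = 1} := by
      ext v
      constructor
      · rintro ⟨⟨g, hg⟩, rfl⟩
        have hg' : g.1 a = a := hg
        change f (g.1 b) a = 1
        rw [← hba, ← h.iso g.1 g.2 b a, hg']
      · intro hv
        obtain ⟨γ, g, hg, hγ⟩ := h.full a ha _ (h.pr_a hab v)
        have ga : g a = a := by rw [hγ, hfix _ _ (h.pr_a hab v)]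
        rcases h01 (f v b) γ with e | e
        · refine ⟨⟨⟨g, hg⟩, ga⟩, ?_⟩
          change g b = v
          rw [hγ, h.uu_opp0 hab (h.pr_b hab v) _ (h.pr_a hab v), ← e, ← dec v hv]
        · refine ⟨⟨⟨g * g0, mul_mem hg hg0⟩, show (g * g0) a = a by rw [le_mul_apply, k1, ga]⟩, ?_⟩
          change (g * g0) b = v
          rw [le_mul_apply, k2, hγ, h.uu_opp hab (h.pr_b hab v) _ _ (h.pr_a hab v), ← e, ← dec v hv]
    have e1 := MulAction.index_stabilizer S b
    have e2 := Set.ncard_add_ncard_compl {v | f v a = 1}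
    have e3 : {v | f v a = 1}ᶜ = (fun v => v + b) '' {v | f v a = 1} := by
      ext v
      constructor
      · intro hv
        refine ⟨v + b, ?_, by simp only [add_assoc, h.add_self, add_zero]⟩
        have : f v a = 0 := by
          by_contra h0
          exact hv (h2 _ h0)
        simp [this, hba]
      · rintro ⟨v, hv, rfl⟩ hv'
        have i1 : f v a = 1 := hv
        have i2 : f (v + b) a = 1 := hv'
        simp [i1, hba] at i2
    rw [e3, Set.ncard_image_of_injective _ (add_left_injective b), hV, ← e, ← e1] at e2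
    exact ((by omega : (MulAction.stabilizer S b).index = 8) ▸ Subgroup.index_dvd_card _).trans
      (Subgroup.card_subgroup_dvd_card S)
  exact (by norm_num : Nat.Coprime 15 8).mul_dvd_of_dvd_of_dvd h15 h8

variable [FiniteDimensional F V]

theorem Ctx0.six (h : Ctx0 f) (hn : 5 ≤ finrank F V) (a c : V) : ∃ w w', f w a = 0 ∧ f w c = 0 ∧
    f w' a = 0 ∧ f w' c = 0 ∧ f w' w = 1 := by
  let P := PQ.ofAlt f h.alt
  let W := perp P (Submodule.span F {a, c})
  have hW : ∀ w, w ∈ W ↔ f w a = 0 ∧ f w c = 0 := fun w => by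
    simp only [W, mem_perp_span, Set.mem_insert_iff, Set.mem_singleton_iff, forall_eq_or_imp,
      forall_eq]
    rw [h.sym w a, h.sym w c]; rfl
  have h1 := finrank_le_perp (P := P) (Submodule.span F {a, c})
  have h2 : finrank F (Submodule.span F ({a, c} : Set V)) ≤ 2 := by
    classical
    exact (finrank_span_le_card ({a, c} : Set V)).trans (by simpa using Finset.card_le_two)
  by_contra hc
  push Not at hc
  have := two_mul_finrank_le_of_ts (P := P) h.nd (W := W) fun w hw w' hw' => by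
    by_contra h0
    change f w w' ≠ 0 at h0
    obtain ⟨i1, i2⟩ := (hW w).1 hw
    obtain ⟨i3, i4⟩ := (hW w').1 hw'
    exact hc ((f w w')⁻¹ • w') w (by simp [i3]) (by simp [i4]) i1 i2
      (by simp [inv_mul_cancel₀ h0])
  change finrank F V ≤ finrank F W + _ at h1
  omega

theorem Ctx0.big' (h : Ctx0 f) (hn : 3 ≤ finrank F V) (a c : V) :
    ∃ w, w ≠ 0 ∧ f w a = 0 ∧ f w c = 0 := by
  let P := PQ.ofAlt f h.alt
  have h1 := finrank_le_perp (P := P) (Submodule.span F {a, c})
  have h2 : finrank F (Submodule.span F ({a, c} : Set V)) ≤ 2 := by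
    classical
    exact (finrank_span_le_card ({a, c} : Set V)).trans (by simpa using Finset.card_le_two)
  obtain ⟨w, hw, h0⟩ := exists_ne_zero_mem (X := perp P (Submodule.span F {a, c})) (by omega)
  rw [mem_perp_span] at hw
  exact ⟨w, h0, by rw [h.sym]; exact hw a (by simp), by rw [h.sym]; exact hw c (by simp)⟩

/-- The main dichotomy. -/
theorem Ctx.main (h : Ctx f L D) [Finite F] {a : V} (ha : a ∈ D) (hn : 4 ≤ finrank F V) :
    (PQ.ofAlt f h.alt).Isom ≤ L ∨
    (∃ Q : QuadraticForm F V, (∀ x y, QuadraticMap.polar Q x y = f x y) ∧ L ≤ H12.O Q ∧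
      (H12.O Q ≤ L ∨ ∀ g : H12.O Q, g.1 ∈ L ↔ Even (finrank F (H12.mov g)))) ∨
    (Nat.card F = 2 ∧ finrank F V = 4 ∧ 120 ∣ Nat.card L) := by
  by_cases hA : NoTv f L D
  swap
  · simp only [NoTv, not_forall] at hA
    obtain ⟨d, hd, k, hu, hk⟩ := hA
    exact Or.inl (h.caseB hd hk hu)
  right
  obtain ⟨b, hb, hab⟩ := h.exists_opp ha
  have key : H0 f L D → ∃ Q : QuadraticForm F V, (∀ x y, QuadraticMap.polar Q x y = f x y) ∧
      L ≤ H12.O Q ∧ (H12.O Q ≤ L ∨ ∀ g : H12.O Q, g.1 ∈ L ↔ Even (finrank F (H12.mov g))) := by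
    intro h0
    obtain ⟨Q, hQ, Qa, Qb, hinv, hs, hX⟩ := h.exists_quad h0 hA ha hb hab
    refine ⟨Q, hQ, fun g hg => H12.mem_O.2 (hinv g hg), ?_⟩
    have hnd : H12.Nondeg Q := fun v hv => h.nd v fun w => by rw [← hQ, hv]
    rcases top_or_even h.two hnd (by omega) Qa Qb (by rw [hQ, hab]) (by simpa only [hQ] using hs)
      (L.subgroupOf (H12.O Q)) (fun u v => by
        by_cases hu : Q u = 0 ∧ QuadraticMap.polar Q u v = 0
        · by_cases u0 : u = 0
          · rw [u0, H12.eich_zero_left]; exact one_mem _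
          refine (hX u v u0 hu.1 (by rw [h.sym, ← hQ, hu.2])).mem fun x => ?_
          rw [Subgroup.coe_subtype, H12.eich_apply hu.1 hu.2, uu, hQ, hQ]
          linear_combination (norm := module) -h.two • (f x u • v + (Q v * f x u) • u)
        · rw [H12.eich_of_not hu]; exact one_mem _) with e | e
    · exact Or.inl fun g hg => (e ▸ Subgroup.mem_top _ : (⟨g, hg⟩ : H12.O Q) ∈ L.subgroupOf _)
    · exact Or.inr e
  by_cases hx : ∃ x : F, x ≠ 0 ∧ x ≠ 1
  · obtain ⟨x, hx0, hx1⟩ := hx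
    exact Or.inl (key (h.h0_of_big hA hx0 hx1))
  push Not at hx
  by_cases h5 : 5 ≤ finrank F V
  · exact Or.inl (key (h.h0_of_dim fun a c _ => h.six h5 a c))
  by_cases hs : ∀ a ∈ D, ∀ b ∈ D, f a b = 1 → a + b ∉ D
  · exact Or.inl (key (h.h0_of_two hx hs))
  push Not at hs
  obtain ⟨a', ha', b', hb', hab', hd⟩ := hs
  have hF : Nat.card F = 2 := by
    rw [Nat.card_eq_two_iff]
    refine ⟨0, 1, zero_ne_one, Set.eq_univ_of_forall fun x => ?_⟩
    by_cases e : x = 0
    · simp [e]
    · simp [hx x e]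
  have h4 : finrank F V = 4 := by omega
  have : Finite V := Module.finite_of_finite F
  exact Or.inr ⟨hF, h4, h.exc hx (by rw [Module.natCard_eq_pow_finrank (K := F), hF, h4]; rfl) ha' hb'
    hab' hd⟩

/-- The symplectic transvections. -/
def tv (h : Ctx0 f) (v : V) : V ≃ₗ[F] V :=
  LinearEquiv.ofInvolutive (LinearMap.id + (f.flip v).smulRight v) fun x => by
    change x + f x v • v + f (x + f x v • v) v • v = x
    simp only [map_add, map_smul, LinearMap.add_apply, LinearMap.smul_apply, h.alt, smul_eq_mul]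
    linear_combination (norm := module) h.two • (f x v • v)

theorem tv_apply (h : Ctx0 f) (v x : V) : tv h v x = x + f x v • v := rfl

theorem tv_iso (h : Ctx0 f) (v x y : V) : f (tv h v x) (tv h v y) = f x y := by
  simp only [tv_apply, map_add, map_smul, LinearMap.add_apply, LinearMap.smul_apply, h.alt,
    smul_eq_mul, h.sym v y]
  linear_combination (f x v * f y v) * h.two

/-- A `2`-group normalised by the stabiliser of `a` and fixing `a` lies in the radical. -/
theorem Ctx0.core (h : Ctx0 f) {N : Subgroup (V ≃ₗ[F] V)} [Finite N] (hp : IsPGroup 2 N) {a b : V}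
    (hab : f a b = 1) (hiso : ∀ g ∈ N, ∀ x y, f (g x) (g y) = f x y) (hfix : ∀ g ∈ N, g a = a)
    (hn : ∀ v, f v a = 0 → ∀ g ∈ N, (tv h v)⁻¹ * g * tv h v ∈ N) (h3 : 3 ≤ finrank F V)
    {x : V ≃ₗ[F] V} (hx : x ∈ N) :
    ∃ w c, f w a = 0 ∧ f w b = 0 ∧ ∀ v, x v = uu f a w c v := by
  have : CharP F 2 := (CharP.charP_iff_prime_eq_zero Nat.prime_two).2 (by exact_mod_cast h.two)
  have hba : f b a = 1 := by rw [h.sym, hab]
  let ρ0 : Representation F N V := (LinearEquiv.automorphismGroup.toLinearMapMonoidHom).comp N.subtype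
  have ρa : ∀ (g : N) v, ρ0 g v = g.1 v := fun _ _ => rfl
  let A : Submodule F V := F ∙ a
  let ρ := ρ0.quotient A fun g => (Submodule.span_singleton_le_iff_mem _ _).2 (by
    rw [Submodule.mem_comap, ρa, hfix _ g.2]; exact Submodule.mem_span_singleton_self a)
  have ρb : ∀ (g : N) v, ρ g (A.mkQ v) = A.mkQ (g.1 v) := fun _ _ => rfl
  obtain ⟨w0, hw0, w1, w2⟩ := h.big' h3 a b
  have hA : ∀ v, f v b = 0 → A.mkQ v = 0 → v = 0 := fun v hv e => by
    obtain ⟨t, rfl⟩ := Submodule.mem_span_singleton.1 ((Submodule.Quotient.mk_eq_zero A).1 e)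
    simp only [map_smul, LinearMap.smul_apply, hab, smul_eq_mul, mul_one] at hv
    rw [hv, zero_smul]
  obtain ⟨_, ⟨u, hu, rfl⟩, hu0, hfx⟩ := H26.exists_fixed_vector_of_isPGroup hp ρ
    ((LinearMap.ker (f.flip a)).map A.mkQ) (by
      rintro g _ ⟨v, hv, rfl⟩
      refine ⟨g.1 v, ?_, rfl⟩
      change f (g.1 v) a = 0
      rw [← hfix g.1 g.2, hiso g.1 g.2]
      exact hv) (fun e => hw0 (hA w0 w2 (by
        rw [← Submodule.mem_bot F, ← e]; exact ⟨w0, w1, rfl⟩)))
  replace hu : f u a = 0 := hu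
  let W : Submodule F V :=
    { carrier := {v | ∀ g ∈ N, g v - v ∈ A}
      add_mem' := fun {x y} hx hy g hg => by
        simpa only [map_add, add_sub_add_comm] using add_mem (hx g hg) (hy g hg)
      zero_mem' := fun g _ => by simp
      smul_mem' := fun t x hx g hg => by
        simpa only [map_smul, smul_sub] using A.smul_mem t (hx g hg) }
  have hWu : u ∈ W := fun g hg => (Submodule.Quotient.eq A).1 (hfx ⟨g, hg⟩)
  have hW1 : ∀ v, f v a = 0 → f u v ≠ 0 → v ∈ W := fun v hv huv => by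
    have e1 : tv h v u ∈ W := fun g hg => by
      obtain ⟨t, ht⟩ := Submodule.mem_span_singleton.1 (hWu _ (hn v hv g hg))
      have := congrArg (tv h v) ht
      rw [map_sub, le_mul_apply, le_mul_apply, le_apply_inv, map_smul, tv_apply h v a, h.sym a v,
        hv, zero_smul, add_zero] at this
      exact this ▸ A.smul_mem t (Submodule.mem_span_singleton_self a)
    have e2 := W.smul_mem (f u v)⁻¹ (W.sub_mem e1 hWu)
    rwa [tv_apply, add_sub_cancel_left, smul_smul, inv_mul_cancel₀ huv, one_smul] at e2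
  have hW : ∀ v, f v a = 0 → v ∈ W := fun v hv => by
    by_cases huv : f u v = 0
    · have hp0 : pr f a b u ≠ 0 := fun e => hu0 (by
        rw [h.eq_pr a b u, e, hu, zero_smul, add_zero, zero_add]
        exact (Submodule.Quotient.mk_eq_zero A).2
          (A.smul_mem _ (Submodule.mem_span_singleton_self a)))
      obtain ⟨y, y1, y2, y3⟩ := h.exists_dual hab hp0 (h.pr_a hab u) (h.pr_b hab u)
      have y4 : f u y = 1 := by simpa [pr, h.sym a y, h.sym b y, y1, y2] using y3
      simpa using W.sub_mem (hW1 (v + y) (by simp [hv, y1]) (by simp [huv, y4]))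
        (hW1 y y1 (by simp [y4]))
    · exact hW1 v hv huv
  set w := x b + b with hw
  have wa : f w a = 0 := by
    rw [hw, map_add, LinearMap.add_apply, ← hfix x hx, hiso x hx, hfix x hx, h.sadd]
  have xb : x b = b + w := by rw [hw, add_comm (x b), ← add_assoc, h.add_self, zero_add]
  have k1 : ∀ v, f v a = 0 → x v = v + f v w • a := fun v hv => by
    obtain ⟨t, ht⟩ := Submodule.mem_span_singleton.1 (hW v hv x hx)
    have e1 : x v = v + t • a := by rw [ht]; abel
    have e2 := hiso x hx v b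
    rw [e1, xb] at e2
    simp only [map_add, map_smul, LinearMap.add_apply, LinearMap.smul_apply, smul_eq_mul, hab,
      h.sym a w, wa] at e2
    rw [e1, show t = f v w by linear_combination e2 - f v w * h.two]
  refine ⟨pr f a b w, f b w, h.pr_a hab w, h.pr_b hab w, fun v => ?_⟩
  have e := h.eq_pr a b w
  rw [wa, zero_smul, add_zero] at e
  rw [← h.uu_add_smul a _ _ (f w b), ← e]
  have e1 := k1 (v + f v a • b) (by simp [hba, h.sadd])
  rw [map_add, map_smul, xb] at e1
  simp only [map_add, map_smul, LinearMap.add_apply, LinearMap.smul_apply, smul_eq_mul] at e1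
  rw [uu]
  linear_combination (norm := module) e1 - h.two • (f v a • w)

theorem Ctx0.full (h : Ctx0 f) [Finite F] {X : Subgroup (V ≃ₗ[F] V)} {a b : V} (hab : f a b = 1)
    (hX : ∀ x ∈ X, ∃ w c, f w a = 0 ∧ f w b = 0 ∧ ∀ v, x v = uu f a w c v)
    (hnt : ∀ k, HU f X a 0 k → k = 0) (hcard : Nat.card X * Nat.card F ^ 2 = Nat.card V) (w : V)
    (hw : f w a = 0) : ∃ c, HU f X a w c := by
  have : Finite V := Module.finite_of_finite F
  have hba : f b a = 1 := by rw [h.sym, hab]
  choose! ω γ h1 h2 h3 using hX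
  let Φ : X × F × F → V := fun p => ω p.1 + p.2.1 • a + p.2.2 • b
  have hinj : Function.Injective Φ := by
    rintro ⟨⟨x, hx⟩, s, t⟩ ⟨⟨y, hy⟩, s', t'⟩ e
    replace e : ω x + s • a + t • b = ω y + s' • a + t' • b := e
    have e1 := congrArg (f · a) e
    have e2 := congrArg (f · b) e
    simp only [map_add, map_smul, LinearMap.add_apply, LinearMap.smul_apply, smul_eq_mul, h1 x hx,
      h1 y hy, h2 x hx, h2 y hy, hab, hba, h.alt, mul_zero, mul_one, zero_add, add_zero] at e1 e2
    subst e1 e2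
    have e3 : ω x = ω y := add_right_cancel (add_right_cancel e)
    have e4 := hnt _ ((h.add (L := X) ⟨x, hx, h3 x hx⟩ ⟨y, hy, h3 y hy⟩ (h1 x hx) (h1 y hy)).cast
      (by rw [e3, h.add_self]) rfl)
    rw [e3, h.alt, add_zero] at e4
    have : x = y := LinearEquiv.ext fun v => by rw [h3 x hx, h3 y hy, e3, h.eq_of_add e4]
    subst this
    rfl
  have hs := (hinj.bijective_of_nat_card_le (by
    rw [Nat.card_prod, Nat.card_prod, ← hcard, sq])).2
  obtain ⟨⟨⟨x, hx⟩, s, t⟩, e⟩ := hs w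
  replace e : ω x + s • a + t • b = w := e
  have e1 := congrArg (f · a) e
  simp only [map_add, map_smul, LinearMap.add_apply, LinearMap.smul_apply, smul_eq_mul, h1 x hx,
    hba, h.alt, mul_zero, mul_one, zero_add, add_zero, hw] at e1
  rw [e1, zero_smul, add_zero] at e
  exact ⟨γ x, e ▸ (h.HU_add_smul s).2 ⟨x, hx, h3 x hx⟩⟩

theorem Ctx0.ctx (h : Ctx0 f) (h3 : 3 ≤ finrank F V) (hiso : ∀ g ∈ L, ∀ x y, f (g x) (g y) = f x y)
    {a : V} (ha : a ≠ 0) (hf : ∀ w, f w a = 0 → ∃ c, HU f L a w c)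
    (hirr : ∀ W : Submodule F V, (∀ g ∈ L, ∀ w ∈ W, g w ∈ W) → W = ⊥ ∨ W = ⊤) :
    Ctx f L {d | ∃ g ∈ L, ∃ t : F, t ≠ 0 ∧ d = t • g a} where
  toCtx0 := h
  iso := hiso
  ne := by
    rintro _ ⟨g, -, t, ht, rfl⟩
    exact smul_ne_zero ht (by simpa using ha)
  app := by
    rintro _ ⟨g, hg, t, ht, rfl⟩ g' hg'
    exact ⟨g' * g, mul_mem hg' hg, t, ht, by rw [map_smul, le_mul_apply]⟩
  smul := by
    rintro _ ⟨g, hg, t, ht, rfl⟩ s hs
    exact ⟨g, hg, s * t, mul_ne_zero hs ht, by rw [smul_smul]⟩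
  trans := by
    rintro _ ⟨g, hg, t, ht, rfl⟩ _ ⟨g', hg', t', ht', rfl⟩
    refine ⟨g' * g⁻¹, mul_mem hg' (inv_mem hg), t' * t⁻¹, mul_ne_zero ht' (inv_ne_zero ht), ?_⟩
    rw [map_smul, le_mul_apply, le_inv_apply_apply, smul_smul, inv_mul_cancel_right₀ ht]
  full := by
    rintro _ ⟨g, hg, t, ht, rfl⟩ w hw
    obtain ⟨c, hc⟩ := hf (g⁻¹ (t • w)) (by
      rw [← hiso g hg, le_apply_inv]
      simpa [ht] using hw)
    refine ⟨c / t ^ 2, HU_smul.2 ?_⟩
    refine HU.cast (w := g (g⁻¹ (t • w))) (c := c) ((Has.conj hc hg).congr fun x => ?_)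
      (le_apply_inv _ _) (by field_simp)
    have e : ∀ y, f (g⁻¹ x) y = f x (g y) := fun y => by
      rw [← hiso g hg, le_apply_inv]
    simp only [uu, map_add, map_smul, le_apply_inv, e]
  span := fun φ hφ => by
    rcases hirr (Submodule.span F {d | ∃ g ∈ L, d = g a}) (fun g hg w hw => by
      refine Submodule.span_induction (p := fun w _ => g w ∈ Submodule.span F _) ?_ ?_ ?_ ?_ hw
      · rintro _ ⟨g', hg', rfl⟩
        exact Submodule.subset_span ⟨g * g', mul_mem hg hg', rfl⟩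
      · simp
      · intro x y _ _ hx hy
        rw [map_add]; exact add_mem hx hy
      · intro t x _ hx
        rw [map_smul]; exact Submodule.smul_mem _ _ hx) with e | e
    · exact absurd ((Submodule.mem_bot F).1 (e ▸ Submodule.subset_span ⟨1, one_mem _, rfl⟩)) ha
    · refine LinearMap.ker_eq_top.1 (eq_top_iff.2 (e ▸ Submodule.span_le.2 ?_))
      rintro _ ⟨g, hg, rfl⟩
      exact hφ _ ⟨g, hg, 1, one_ne_zero, (one_smul _ _).symm⟩
  big := h.big' h3

end H97t
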